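import Cfsg.Agent.H96.EE.Classes

/-!
# Abstract pieces of S3384 : transport of the class count, Sylow, Frattini (helper865)
-/

set_option autoImplicit false

namespace Cfsg.Agent.H865.EE

open Subgroup

universe u v

theorem conj_syl {X : Type u} [Group X] [Finite X] (h5 : ¬ 5 ^ 5 ∣ Nat.card X) {E A : Subgroup X}
    (hE : Nat.card E = 625) (hA : Nat.card A = 625) : ∃ g : X, A.map (MulAut.conj g).toMonoidHom = E := by
  have : Fact (Nat.Prime 5) := ⟨by norm_num⟩
  have hf : (Nat.card X).factorization 5 = 4 := by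
    have h0 : Nat.card X ≠ 0 := Nat.card_pos.ne'
    have h1 : 5 ^ 4 ∣ Nat.card X := by
      have := Subgroup.card_subgroup_dvd_card E
      rw [hE] at this
      simpa using this
    exact Cfsg.Agent.H96.EE.fact_eq (by norm_num) h0 h1 h5
  have e1 : Nat.card E = 5 ^ (Nat.card X).factorization 5 := by rw [hE, hf]; norm_num
  have e2 : Nat.card A = 5 ^ (Nat.card X).factorization 5 := by rw [hA, hf]; norm_num
  obtain ⟨g, hg⟩ := MulAction.exists_smul_eq X (Sylow.ofCard A e2) (Sylow.ofCard E e1)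
  refine ⟨g, ?_⟩
  have := congrArg (fun P : Sylow 5 X => (P : Subgroup X)) hg
  rw [Sylow.smul_def, Sylow.pointwise_smul_def] at this
  exact this

theorem frattini {G : Type u} [Group G] [Finite G] {X E : Subgroup G} (hE : E ≤ X)
    (hc : ∀ A ≤ X, Nat.card A = Nat.card E → ∃ g ∈ X, A.map (MulAut.conj g).toMonoidHom = E) :
    Nat.card ↥(normalizer (X : Set G)) * Nat.card ↥(X ⊓ normalizer (E : Set G)) =
      Nat.card ↥X * Nat.card ↥(normalizer (X : Set G) ⊓ normalizer (E : Set G)) := by
  set N : Subgroup G := normalizer (X : Set G) with hN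
  set M : Subgroup G := N ⊓ normalizer (E : Set G) with hM
  have hXN : X ≤ N := Subgroup.le_normalizer
  have hnorm : (X.subgroupOf N).Normal := by
    rw [hN]; infer_instance
  have hsup : X.subgroupOf N ⊔ M.subgroupOf N = ⊤ := by
    rw [eq_top_iff]
    rintro ⟨n, hn⟩ -
    have hA : E.map (MulAut.conj n).toMonoidHom ≤ X := by
      rintro _ ⟨x, hx, rfl⟩
      exact (mem_normalizer_iff.1 hn x).1 (hE hx)
    obtain ⟨g, hg, hgE⟩ := hc _ hA (Subgroup.card_map_of_injective (MulAut.conj n).injective)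
    have hgn : g * n ∈ normalizer (E : Set G) := by
      rw [mem_normalizer_iff]
      intro x
      have h1 : E.map (MulAut.conj (g * n)).toMonoidHom = E := by
        rw [show (MulAut.conj (g * n)).toMonoidHom =
          (MulAut.conj g).toMonoidHom.comp (MulAut.conj n).toMonoidHom from by ext y; simp [mul_assoc]]
        rw [← Subgroup.map_map, hgE]
      constructor
      · intro hx
        have : (MulAut.conj (g * n)).toMonoidHom x ∈ E.map (MulAut.conj (g * n)).toMonoidHom :=
          Subgroup.mem_map_of_mem _ hx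
        rw [h1] at this
        exact this
      · intro hx
        have : (MulAut.conj (g * n)).toMonoidHom x ∈ E.map (MulAut.conj (g * n)).toMonoidHom := by
          rw [h1]; exact hx
        obtain ⟨y, hy, hyx⟩ := this
        have := (MulAut.conj (g * n)).injective hyx
        rw [← this]; exact hy
    have hm : g * n ∈ M := ⟨mul_mem (hXN hg) hn, hgn⟩
    have : (⟨n, hn⟩ : ↥N) = ⟨g⁻¹, inv_mem (hXN hg)⟩ * ⟨g * n, hm.1⟩ := by
      apply Subtype.ext; simp
    rw [this]
    exact mul_mem (mem_sup_left (Subgroup.mem_subgroupOf.2 (inv_mem hg)))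
      (mem_sup_right (Subgroup.mem_subgroupOf.2 hm))
  have h1 : (X.subgroupOf N).index = (X.subgroupOf N).relIndex (M.subgroupOf N) := by
    rw [← Subgroup.relIndex_top_right, ← hsup, Subgroup.relIndex_sup_left]
  have h2 : Nat.card ↥(X.subgroupOf N) * (X.subgroupOf N).index = Nat.card ↥N := Subgroup.card_mul_index _
  have h3 : Nat.card ↥(X.subgroupOf N ⊓ M.subgroupOf N : Subgroup ↥N) *
      (X.subgroupOf N).relIndex (M.subgroupOf N) = Nat.card ↥(M.subgroupOf N) := by
    have := Subgroup.relIndex_mul_relIndex ⊥ (X.subgroupOf N ⊓ M.subgroupOf N) (M.subgroupOf N) bot_le inf_le_right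
    rwa [Subgroup.relIndex_bot_left, Subgroup.relIndex_bot_left, Subgroup.inf_relIndex_right] at this
  have c1 : Nat.card ↥(X.subgroupOf N) = Nat.card ↥X := Nat.card_congr (Subgroup.subgroupOfEquivOfLe hXN).toEquiv
  have c2 : Nat.card ↥(M.subgroupOf N) = Nat.card ↥M :=
    Nat.card_congr (Subgroup.subgroupOfEquivOfLe inf_le_left).toEquiv
  have c3 : Nat.card ↥(X.subgroupOf N ⊓ M.subgroupOf N : Subgroup ↥N) = Nat.card ↥(X ⊓ normalizer (E : Set G)) := by
    have : (X.subgroupOf N ⊓ M.subgroupOf N : Subgroup ↥N) = (X ⊓ normalizer (E : Set G)).subgroupOf N := by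
      ext x
      simp only [Subgroup.mem_inf, Subgroup.mem_subgroupOf, hM]
      constructor
      · rintro ⟨a, b, c⟩; exact ⟨a, c⟩
      · rintro ⟨a, c⟩; exact ⟨a, x.2, c⟩
    rw [this]
    exact Nat.card_congr (Subgroup.subgroupOfEquivOfLe (inf_le_left.trans hXN)).toEquiv
  rw [c1] at h2
  rw [c2, c3] at h3
  rw [← h1] at h3
  rw [← h2, ← h3]
  ring

theorem final_of {G : Type u} {G' : Type u} [Group G] [Group G'] [Finite G] (e : G ≃* G') {Ω : Type v} [Group Ω]
    (hs : IsSimpleGroup Ω)
    (hn : ∃ a b : Ω, a * b ≠ b * a) (X₁ X₂ : Subgroup G) (h1 : Nonempty (X₁ ≃* Ω)) (h2 : Nonempty (X₂ ≃* Ω))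
    (hcl : ∀ X : Subgroup G, Nonempty (X ≃* Ω) → (∃ g : G, X.map (MulAut.conj g).toMonoidHom = X₁) ∨
      ∃ g : G, X.map (MulAut.conj g).toMonoidHom = X₂)
    (hne : ∀ g : G, X₁.map (MulAut.conj g).toMonoidHom ≠ X₂)
    (hc1 : Subgroup.centralizer (X₁ : Set G) = ⊥) (hc2 : Subgroup.centralizer (X₂ : Set G) = ⊥)
    (hn1 : Nat.card ↥(Subgroup.normalizer (X₁ : Set G)) = 12 * Nat.card X₁)
    (hn2 : Nat.card ↥(Subgroup.normalizer (X₂ : Set G)) = 4 * Nat.card X₂)
    (classes : (Subgroup G' → Prop) → ℕ → Prop)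
    (hclasses : ∀ (P : Subgroup G' → Prop) (k : ℕ), classes P k ↔
      ∃ f : Fin k → Subgroup G', (∀ i, P (f i)) ∧
        (∀ i j, (∃ g : G', (f i).map (MulAut.conj g).toMonoidHom = f j) → i = j) ∧
        (∀ H, P H → ∃ (i : Fin k) (g : G'), H.map (MulAut.conj g).toMonoidHom = f i)) :
    classes (fun H => Nonempty (H ≃* Ω)) 2 ∧
    classes (fun H => Nonempty (Cfsg.generalizedFittingSubgroup H ≃* Ω) ∧
      (Cfsg.generalizedFittingSubgroup H).index = 3) 1 ∧
    classes (fun H => Nonempty (Cfsg.generalizedFittingSubgroup H ≃* Ω) ∧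
      (Cfsg.generalizedFittingSubgroup H).index = 4) 2 ∧
    classes (fun H => Nonempty (Cfsg.generalizedFittingSubgroup H ≃* Ω) ∧
      (Cfsg.generalizedFittingSubgroup H).index = 12) 1 := by
  have : Finite G' := Finite.of_equiv G e.toEquiv
  let m : Subgroup G → Subgroup G' := fun X => X.map e.toMonoidHom
  have hm_iso : ∀ X : Subgroup G, Nonempty (↥X ≃* ↥(m X)) := fun X =>
    ⟨X.equivMapOfInjective e.toMonoidHom e.injective⟩
  have hm_conj : ∀ (X : Subgroup G) (g : G), (m X).map (MulAut.conj (e g)).toMonoidHom =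
      m (X.map (MulAut.conj g).toMonoidHom) := by
    intro X g
    show (X.map e.toMonoidHom).map _ = (X.map _).map e.toMonoidHom
    rw [Subgroup.map_map, Subgroup.map_map]
    congr 1
    ext y
    simp
  have hm_symm : ∀ Y : Subgroup G', m (Y.map e.symm.toMonoidHom) = Y := by
    intro Y
    show (Y.map e.symm.toMonoidHom).map e.toMonoidHom = Y
    rw [Subgroup.map_map]
    conv_rhs => rw [← Subgroup.map_id Y]
    congr 1
    ext y
    simp
  have hm_inj : Function.Injective m := Subgroup.map_injective e.injective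
  have hmem : ∀ (X : Subgroup G) (y : G'), y ∈ m X ↔ e.symm y ∈ X := by
    intro X y
    constructor
    · rintro ⟨x, hx, rfl⟩
      simpa using hx
    · intro h
      exact ⟨e.symm y, h, by simp⟩
  have hm_cen : ∀ X : Subgroup G, centralizer (X : Set G) = ⊥ → centralizer (m X : Set G') = ⊥ := by
    intro X hX
    rw [eq_bot_iff]
    intro y hy
    rw [Subgroup.mem_bot]
    have : e.symm y ∈ centralizer (X : Set G) := by
      rw [Subgroup.mem_centralizer_iff]
      intro x hx
      have := Subgroup.mem_centralizer_iff.1 hy (e x) ((hmem X (e x)).2 (by simpa using hx))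
      have h := congrArg e.symm this
      simpa using h
    rw [hX, Subgroup.mem_bot] at this
    exact (MulEquiv.map_eq_one_iff e.symm).1 this
  have hm_norm : ∀ X : Subgroup G, normalizer (m X : Set G') = m (normalizer (X : Set G)) := by
    intro X
    ext y
    rw [hmem]
    constructor
    · intro h
      refine mem_normalizer_iff.2 fun x => ?_
      have := mem_normalizer_iff.1 h (e x)
      rw [hmem, hmem] at this
      simpa using this
    · intro h
      refine mem_normalizer_iff.2 fun x => ?_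
      have := mem_normalizer_iff.1 h (e.symm x)
      rw [hmem, hmem]
      simpa using this
  have hm_card : ∀ X : Subgroup G, Nat.card ↥(m X) = Nat.card ↥X := fun X =>
    Subgroup.card_map_of_injective e.injective
  refine Cfsg.Agent.H96.EE.classes_of hs hn (m X₁) (m X₂) ?_ ?_ ?_ ?_ (hm_cen _ hc1) (hm_cen _ hc2) ?_ ?_
    classes hclasses
  · obtain ⟨f⟩ := h1
    obtain ⟨f'⟩ := hm_iso X₁
    exact ⟨f'.symm.trans f⟩
  · obtain ⟨f⟩ := h2
    obtain ⟨f'⟩ := hm_iso X₂
    exact ⟨f'.symm.trans f⟩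
  · intro Y hY
    obtain ⟨f⟩ := hY
    obtain ⟨f'⟩ := hm_iso (Y.map e.symm.toMonoidHom)
    rw [hm_symm] at f'
    rcases hcl (Y.map e.symm.toMonoidHom) ⟨f'.trans f⟩ with ⟨g, hg⟩ | ⟨g, hg⟩
    · left
      refine ⟨e g, ?_⟩
      conv_lhs => rw [← hm_symm Y]
      rw [hm_conj, hg]
    · right
      refine ⟨e g, ?_⟩
      conv_lhs => rw [← hm_symm Y]
      rw [hm_conj, hg]
  · intro g hg
    apply hne (e.symm g)
    apply hm_inj
    rw [← hm_conj]
    simpa using hg
  · rw [hm_norm, hm_card, hm_card, hn1]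
  · rw [hm_norm, hm_card, hm_card, hn2]

end Cfsg.Agent.H865.EE
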