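import Cfsg.Agent.S0293
import Cfsg.Agent.S0296
import Cfsg.Agent.LieClassical.OrthCenter

/-!
# Facts on `Ω₈⁺(4)` (helper865, S3384)
-/

set_option autoImplicit false

namespace Cfsg.Agent.H865.EE

open Cfsg Cfsg.Agent.LieClassical Cfsg.Agent.LieClassical.OrthForms

universe u

variable (F : Type u) [Field F] [Fintype F]

theorem om_fin (_hF : Fintype.card F = 4) : Finite ↥(Cfsg.Omega F (Cfsg.quadFormPlus 4 F)) := by
  have : Finite ↥(Cfsg.isometryGroup F (Cfsg.quadFormPlus 4 F)) := by infer_instance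
  infer_instance

theorem charTwo_of (hF : Fintype.card F = 4) : CharP F 2 := by
  obtain ⟨p, hp⟩ := CharP.exists F
  obtain ⟨n, hp1, hn⟩ := FiniteField.card F p
  rw [hF] at hn
  have h1 : p ∣ 2 ^ 2 := by
    have : p ∣ 4 := by rw [hn]; exact dvd_pow_self p n.ne_zero
    simpa using this
  have h2 : p = 2 := (Nat.prime_dvd_prime_iff_eq hp1 Nat.prime_two).1 (hp1.dvd_of_dvd_pow h1)
  rwa [h2] at hp

theorem om_center (hF : Fintype.card F = 4) : Subgroup.center (Omega F (quadFormPlus 4 F)) = ⊥ := by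
  have := charTwo_of F hF
  have hnd := nondeg_plusForm 4 F
  have h1 : Subgroup.center (Omega F ⇑(plusForm 4 F)) = ⊥ := by
    refine Cfsg.Agent.LieClassical.OrthCenter.center_omega_eq_bot_char_two CharTwo.two_eq_zero ?_ ?_ ?_
    · refine ⟨fun x hx => hnd x fun y => hx y, fun x hx => hnd x fun y => ?_⟩
      rw [QuadraticMap.polar_comm]
      exact hx y
    · simp
    · refine ⟨Pi.single (Sum.inl 0) 1, ?_, ?_⟩
      · intro h0
        have := congrFun h0 (Sum.inl 0)
        simp at this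
      · rw [coe_plusForm, quadFormPlus_apply]
        rw [Finset.sum_eq_zero fun i _ => by simp]
  rwa [coe_plusForm] at h1

theorem om_equiv (hF : Fintype.card F = 4) :
    Nonempty (POmega F (quadFormPlus 4 F) ≃* ↥(Omega F (quadFormPlus 4 F))) :=
  ⟨(QuotientGroup.quotientMulEquivOfEq (om_center F hF)).trans QuotientGroup.quotientBot⟩

theorem om_simple (hF : Fintype.card F = 4) : IsSimpleGroup ↥(Cfsg.Omega F (Cfsg.quadFormPlus 4 F)) := by
  obtain ⟨e⟩ := om_equiv F hF
  have : IsSimpleGroup (POmega F (quadFormPlus 4 F)) := Cfsg.Agent.S0296.result 4 le_rfl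
  exact e.isSimpleGroup_congr.1 this

theorem om_nc (hF : Fintype.card F = 4) : ∃ a b : ↥(Cfsg.Omega F (Cfsg.quadFormPlus 4 F)), a * b ≠ b * a := by
  by_contra hcon
  push Not at hcon
  have h1 : Subgroup.center (Omega F (quadFormPlus 4 F)) = ⊤ := by
    rw [eq_top_iff]
    intro x _
    rw [Subgroup.mem_center_iff]
    intro y
    exact hcon y x
  have := om_simple F hF
  rw [om_center F hF] at h1
  exact absurd h1 bot_ne_top

theorem om_card (hF : Fintype.card F = 4) : ¬ 5 ^ 5 ∣ Nat.card ↥(Cfsg.Omega F (Cfsg.quadFormPlus 4 F)) := by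
  obtain ⟨e⟩ := om_equiv F hF
  rw [← Nat.card_congr e.toEquiv]
  have := Cfsg.Agent.S0293.result (F := F) hF 4 le_rfl
  have h2 : ∏ i ∈ Finset.range (4 - 1), (4 ^ (2 * (i + 1)) - 1) = 15 * 255 * 4095 := by decide
  rw [h2] at this
  intro h
  have h3 : 5 ^ 5 ∣ Nat.gcd 4 (4 ^ 4 - 1) * Nat.card (Cfsg.POmega F (Cfsg.quadFormPlus 4 F)) := h.mul_left _
  rw [this] at h3
  revert h3
  norm_num

end Cfsg.Agent.H865.EE
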