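import Cfsg.Agent.H865.EE.Asm
import Cfsg.Agent.H865.EE.Fin
import Cfsg.Agent.H865.EE.OmF
import Cfsg.Agent.H185.EE.CentHyp
import Cfsg.Agent.H857.OE8.Main
import Cfsg.Agent.H136.EE.Idx
import Cfsg.Agent.H342.EE.D4sys

/-!
# The pieces of S3384, collected (helper865)

X: helper857; G5: helper185; C1: helper136; T4: helper342, helper893; J: helper96.
-/

set_option autoImplicit false
namespace Cfsg.Agent.H865.EE
open CoxeterSystem Subgroup Cfsg Cfsg.Lie Cfsg.Lie.ChevalleyDatum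
open Cfsg.Agent.ChevalleyStructure Cfsg.Agent.ChevalleyStructure.Elts Cfsg.Agent.ChevalleyStructure.CoxeterGeom
  Cfsg.Agent.ChevalleyStructure.CoxeterGeomTypes Cfsg.Agent.ChevalleyStructure.NPerm
open Cfsg.Agent.Tits.Roots Cfsg.Agent.Tits.Core Cfsg.Agent.Nodes Cfsg.Agent.Nodes.SubComb Cfsg.Agent.Nodes.Reps
  Cfsg.Agent.Nodes.BNOf Cfsg.Agent.Nodes.RGDChev Cfsg.Agent.Nodes.Bruhat Cfsg.Agent.Nodes.Coroot
open Cfsg.Agent.KFacts.RgdField Cfsg.Agent.KFacts.RgdChevCoord Cfsg.Agent.BpExc.TorCent Cfsg.Agent.BpExc.TorChev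
open Cfsg.Agent.GpExc.Field Cfsg.Agent.BpExc.Tow Cfsg.Agent.BpExc.TowChev Cfsg.Agent.BpExc.Fr
  Cfsg.Agent.BpExc.LangFr Cfsg.Agent.BpExc.FamField Cfsg.Agent.BpExc.FamInst Cfsg.Agent.H129.TorusChar
  Cfsg.Agent.H795.LangT Cfsg.Agent.BpExc.FamExt Cfsg.Agent.BpExc.FamUntw Cfsg.Agent.H378.TorDual Cfsg.Agent.H378.TorChar
  Cfsg.Agent.H378.TorFin Cfsg.Agent.H378.RankOne Cfsg.Agent.H378.RootTor

universe u v

variable {k : Type} [Field k] [CharP k 2] [PerfectRing k 2] [IsAlgClosed k] (hk : LocFin k)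

/-- X : helper857 -/
theorem xb_iso (hk : LocFin k) {b : Fin 4 → Fin 8 → ℤ} (hb : Quad b) (F : Type u) [Field F] [Fintype F]
    (hF : Fintype.card F = 4) : Nonempty (↥(XB k b) ≃* ↥(Cfsg.Omega F (Cfsg.quadFormPlus 4 F))) :=
  Cfsg.Agent.H857.OX.xb_iso hk hb F hF

theorem e5_le (hk : LocFin k) {b : Fin 4 → Fin 8 → ℤ} (hb : Quad b) : E5 k ≤ XB k b :=
  Cfsg.Agent.H857.OX.e5_le hk hb

theorem mem_of_nu_mem (hk : LocFin k) {b : Fin 4 → Fin 8 → ℤ} (hb : Quad b) {v : W8} {t : ↥(chevE8.group k)}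
    (ht : t ∈ TT chevE8 k) (h : nu tp8 k v * t ∈ XB k b) : v ∈ Subgroup.closure (Set.range fun i => rr (b i)) :=
  Cfsg.Agent.H857.OX.mem_of_nu_mem hk hb ht h

theorem nu_mem (hk : LocFin k) {b : Fin 4 → Fin 8 → ℤ} (hb : Quad b) {v : W8}
    (h : v ∈ Subgroup.closure (Set.range fun i => rr (b i))) : nu tp8 k v ∈ XB k b :=
  Cfsg.Agent.H857.OX.nu_mem hk hb h

theorem ss_of_xb (hk : LocFin k) {b b' : Fin 4 → Fin 8 → ℤ} (hb : Quad b) (hb' : Quad b') (h : XB k b = XB k b') :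
    SS b = SS b' := Cfsg.Agent.H857.OX.ss_of_xb hk hb hb' h

/-- G5 : helper185 -/
theorem cent_hyp (hk : LocFin k) {H L : Subgroup ↥(chevE8.group k)} (hH : H ≤ E5 k) (hH1 : Nat.card H = 125)
    (hL : L ≤ GG k) (hL1 : ⁅L, L⁆ = L) (hL2 : L ≠ ⊥) (hLH : ∀ x ∈ L, ∀ h ∈ H, x * h = h * x) :
    ∃ a, Rt a ∧ (∀ t ∈ E5 k, t ∈ H ↔ cX tp8 t a = 1) ∧ L ≤ KK k {a, -a, act w8 a, -act w8 a} :=
  Cfsg.Agent.H185.EE.cent_hyp k hk hH hH1 hL hL1 hL2 hLH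

/-- C1 : helper136 -/
abbrev q1 : Fin 4 → Fin 8 → ℤ := Cfsg.Agent.H136.EE.q1
abbrev q2 : Fin 4 → Fin 8 → ℤ := Cfsg.Agent.H136.EE.q2
noncomputable abbrev SB (b : Fin 4 → Fin 8 → ℤ) : Subgroup W8 := Cfsg.Agent.H136.EE.SB b

theorem quad_q1 : Quad q1 := Cfsg.Agent.H136.EE.quad_q1
theorem quad_q2 : Quad q2 := Cfsg.Agent.H136.EE.quad_q2
theorem combi {b : Fin 4 → Fin 8 → ℤ} (hb : Quad b) : ∃ v ∈ CW,
    (∀ x, x ∈ SS b ↔ act v x ∈ SS q1) ∨ (∀ x, x ∈ SS b ↔ act v x ∈ SS q2) := Cfsg.Agent.H136.EE.combi hb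

theorem combi2 : ¬ ∃ v ∈ CW, ∀ x, x ∈ SS q1 ↔ act v x ∈ SS q2 := Cfsg.Agent.H136.EE.combi2

theorem combi3a : (Subgroup.closure (Set.range fun i => rr (q1 i))).relIndex (SB q1) = 12 :=
  Cfsg.Agent.H136.EE.combi3a
theorem combi3b : (Subgroup.closure (Set.range fun i => rr (q2 i))).relIndex (SB q2) = 4 :=
  Cfsg.Agent.H136.EE.combi3b

/-- T4 : helper342, helper893 -/
theorem d4sys (F : Type u) [Field F] [Fintype F] (hF : Fintype.card F = 4) :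
    D4Sys ↥(Cfsg.Omega F (Cfsg.quadFormPlus 4 F)) := Cfsg.Agent.H342.EE.d4sys F hF

end Cfsg.Agent.H865.EE
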