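import Cfsg.Agent.H865.EE.Facts2

/-!
# Subgroups `Ω₈⁺(4)` of `GG k` are conjugate to `XB k b` (helper865, S3384)
-/

set_option autoImplicit false
set_option linter.unusedSectionVars false

namespace Cfsg.Agent.H865.EE

open CoxeterSystem Subgroup Cfsg Cfsg.Lie Cfsg.Lie.ChevalleyDatum
open Cfsg.Agent.ChevalleyStructure Cfsg.Agent.ChevalleyStructure.Elts Cfsg.Agent.ChevalleyStructure.CoxeterGeom
  Cfsg.Agent.ChevalleyStructure.CoxeterGeomTypes Cfsg.Agent.ChevalleyStructure.NPerm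
open Cfsg.Agent.Tits.Roots Cfsg.Agent.Tits.Core Cfsg.Agent.Nodes Cfsg.Agent.Nodes.SubComb Cfsg.Agent.Nodes.Reps
  Cfsg.Agent.Nodes.BNOf Cfsg.Agent.Nodes.RGDChev Cfsg.Agent.Nodes.Bruhat Cfsg.Agent.Nodes.Coroot
open Cfsg.Agent.KFacts.RgdField Cfsg.Agent.KFacts.RgdChevCoord Cfsg.Agent.BpExc.TorCent Cfsg.Agent.BpExc.TorChev
open Cfsg.Agent.GpExc.Field Cfsg.Agent.BpExc.Tow Cfsg.Agent.BpExc.TowChev Cfsg.Agent.BpExc.Fr
  Cfsg.Agent.BpExc.LangFr Cfsg.Agent.BpExc.FamField Cfsg.Agent.BpExc.FamInst Cfsg.Agent.H129.TorusChar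
  Cfsg.Agent.H795.LangT Cfsg.Agent.BpExc.FamExt Cfsg.Agent.BpExc.FamUntw Cfsg.Agent.H378.TorDual Cfsg.Agent.H378.TorChar
  Cfsg.Agent.H378.TorFin Cfsg.Agent.H378.RankOne Cfsg.Agent.H378.RootTor

attribute [local irreducible] w8

universe u

variable {k : Type} [Field k] [CharP k 2] [PerfectRing k 2] [IsAlgClosed k] (hk : LocFin k)

/-! ### Conjugation in `GG k` -/

theorem map_conj_le {X : Subgroup ↥(chevE8.group k)} (hX : X ≤ GG k) {g : ↥(chevE8.group k)} (hg : g ∈ GG k) :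
    X.map (MulAut.conj g).toMonoidHom ≤ GG k := by
  rintro _ ⟨x, hx, rfl⟩
  show g * x * g⁻¹ ∈ GG k
  exact mul_mem (mul_mem hg (hX hx)) (inv_mem hg)

include hk in
/-- an abelian subgroup of order 625 of `GG k` is conjugate to `E5 k`. -/
theorem conj_E5 {A : Subgroup ↥(chevE8.group k)} (hA : A ≤ GG k) (hc : Nat.card ↥A = 625)
    (hab : ∀ a ∈ A, ∀ b ∈ A, a * b = b * a) : ∃ g ∈ GG k, A.map (MulAut.conj g).toMonoidHom = E5 k := by
  have : Finite ↥(GG k) := finite_GG hk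
  have hE : E5 k ≤ GG k := inf_le_right
  have hcard : ∀ {B : Subgroup ↥(chevE8.group k)}, B ≤ GG k → Nat.card ↥(B.subgroupOf (GG k)) = Nat.card ↥B :=
    fun {B} h => Nat.card_congr (Subgroup.subgroupOfEquivOfLe h).toEquiv
  have key : ∀ x : ↥(GG k), (∃ n : ℕ, x ^ 5 ^ n = 1) →
      (∀ e ∈ (E5 k).subgroupOf (GG k), x * e * x⁻¹ ∈ (E5 k).subgroupOf (GG k)) →
      (∃ H : Subgroup ↥(GG k), H ≤ (E5 k).subgroupOf (GG k) ∧ Nat.card H = 125 ∧ ∀ h ∈ H, x * h = h * x) →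
      x ∈ (E5 k).subgroupOf (GG k) := by
    rintro x ⟨n, hn⟩ hx ⟨H, hH, hH1, hH2⟩
    have h1 : ∀ t ∈ E5 k, x.1 * t * x.1⁻¹ ∈ E5 k := fun t ht =>
      Subgroup.mem_subgroupOf.1 (hx ⟨t, hE ht⟩ (Subgroup.mem_subgroupOf.2 ht))
    obtain ⟨v, hv⟩ := RepE.of_norm hk x.2 h1
    have h2 : v ^ 5 ^ n = 1 := (hv.pow hk (5 ^ n)).eq_one hk (fun t ht => by
      rw [← Subgroup.coe_pow, hn, Subgroup.coe_one, one_mul, mul_one])
    let H1 : Subgroup ↥(chevE8.group k) := H.map (GG k).subtype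
    have hH1' : H1 ≤ E5 k := by
      rintro _ ⟨h, hh, rfl⟩
      exact Subgroup.mem_subgroupOf.1 (hH hh)
    obtain ⟨c, hc0, h3, -⟩ := hv.hyp hk hH1' (by
      rw [Subgroup.card_map_of_injective (GG k).subtype_injective, hH1]) (by
      rintro _ ⟨h, hh, rfl⟩
      exact congrArg Subtype.val (hH2 h hh))
    have h4 : v = 1 := no_transv hv.1 ⟨n, h2⟩ c hc0 h3
    rw [h4] at hv
    exact Subgroup.mem_subgroupOf.2 hv.mem
  obtain ⟨g, hg⟩ := conj_of ((E5 k).subgroupOf (GG k)) (by rw [hcard hE, card_E5 hk])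
    (fun a ha b hb => Subtype.ext (E5_comm (Subgroup.mem_subgroupOf.1 ha) (Subgroup.mem_subgroupOf.1 hb)))
    (not_dvd_GG hk) key (A.subgroupOf (GG k)) (by rw [hcard hA, hc])
    (fun a ha b hb => Subtype.ext (hab _ (Subgroup.mem_subgroupOf.1 ha) _ (Subgroup.mem_subgroupOf.1 hb)))
  refine ⟨g.1, g.2, ?_⟩
  ext y
  constructor
  · rintro ⟨a, ha, rfl⟩
    have h1 : (⟨a, hA ha⟩ : ↥(GG k)) ∈ A.subgroupOf (GG k) := Subgroup.mem_subgroupOf.2 ha
    have h2 : g * ⟨a, hA ha⟩ * g⁻¹ ∈ (E5 k).subgroupOf (GG k) := by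
      rw [← hg]; exact ⟨_, h1, rfl⟩
    exact Subgroup.mem_subgroupOf.1 h2
  · intro hy
    have h1 : (⟨y, hE hy⟩ : ↥(GG k)) ∈ (E5 k).subgroupOf (GG k) := Subgroup.mem_subgroupOf.2 hy
    rw [← hg] at h1
    obtain ⟨a, ha, h2⟩ := h1
    exact ⟨a.1, Subgroup.mem_subgroupOf.1 ha, congrArg Subtype.val h2⟩

/-! ### The root subgroups -/

theorem KK_mono {S T : Set (Fin 8 → ℤ)} (h : S ⊆ T) : KK k S ≤ KK k T := by
  refine Subgroup.closure_mono ?_
  rintro g ⟨a, ha, c, rfl⟩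
  exact ⟨a, h ha, c, rfl⟩

theorem Ph_neg {b : Fin 4 → Fin 8 → ℤ} {a : Fin 8 → ℤ} (h : a ∈ Ph b) : -a ∈ Ph b := by
  obtain ⟨h1, c, hc⟩ := h
  refine ⟨rt_neg h1, -c, ?_⟩
  rw [hc, ← Finset.sum_neg_distrib]
  exact Finset.sum_congr rfl fun i _ => by rw [Pi.neg_apply, neg_smul]

theorem Ph_self {b : Fin 4 → Fin 8 → ℤ} (hb : Quad b) (i : Fin 4) : b i ∈ Ph b := by
  refine ⟨hb.root i, Pi.single i 1, ?_⟩
  rw [Finset.sum_eq_single i (fun j _ hj => by rw [Pi.single_eq_of_ne hj, zero_smul])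
    (fun h => absurd (Finset.mem_univ i) h), Pi.single_eq_same, one_smul]

theorem SS_neg {b : Fin 4 → Fin 8 → ℤ} {a : Fin 8 → ℤ} (h : a ∈ SS b) : -a ∈ SS b := by
  rcases h with h | ⟨a', h, rfl⟩
  · exact Or.inl (Ph_neg h)
  · exact Or.inr ⟨-a', Ph_neg h, by rw [map_neg]⟩

theorem SS_w8 {b : Fin 4 → Fin 8 → ℤ} {a : Fin 8 → ℤ} (h : a ∈ SS b) : act w8 a ∈ SS b := by
  rcases h with h | ⟨a', h, rfl⟩
  · exact Or.inr ⟨a, h, rfl⟩
  · rw [w8_sq]
    exact Or.inl (Ph_neg h)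

/-- **A subgroup of `GG k` with a `D₄`-system is conjugate to a subgroup of some `XB k b`.** -/
theorem exists_conj_le (hk : LocFin k) {X : Subgroup ↥(chevE8.group k)} (hX : X ≤ GG k) (hD : D4Sys ↥X) :
    ∃ g ∈ GG k, ∃ b, Quad b ∧ X.map (MulAut.conj g).toMonoidHom ≤ XB k b := by
  obtain ⟨E', H', L', n', d1, d2, d3, d4, d5, d6, d7, d8, d9, d10, d11, d12, d13, d14, d15⟩ := hD
  have hle : ∀ K : Subgroup ↥X, K.map X.subtype ≤ GG k := fun K => by
    rintro _ ⟨x, -, rfl⟩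
    exact hX x.2
  obtain ⟨g, hg, hgE⟩ := conj_E5 hk (hle E') (by rw [Subgroup.card_map_of_injective X.subtype_injective, d1]) (by
    rintro _ ⟨a, ha, rfl⟩ _ ⟨b, hb, rfl⟩
    rw [← map_mul, ← map_mul, d2 a ha b hb])
  refine ⟨g, hg, ?_⟩
  let f : ↥X →* ↥(chevE8.group k) := (MulAut.conj g).toMonoidHom.comp X.subtype
  have hf : Function.Injective f := (MulAut.conj g).injective.comp X.subtype_injective
  have hfG : ∀ x, f x ∈ GG k := fun x => mul_mem (mul_mem hg (hX x.2)) (inv_mem hg)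
  have hfE : E'.map f = E5 k := by rw [← hgE, Subgroup.map_map]
  have hE1 : ∀ e ∈ E', f e ∈ E5 k := fun e he => hfE ▸ ⟨e, he, rfl⟩
  have hE2 : ∀ t ∈ E5 k, ∃ e ∈ E', f e = t := fun t ht => by
    rw [← hfE] at ht
    exact ht
  have hfX : X.map (MulAut.conj g).toMonoidHom = (⊤ : Subgroup ↥X).map f := by
    rw [← Subgroup.map_map]
    congr 1
    rw [← MonoidHom.range_eq_map, Subgroup.range_subtype]
  -- the hyperplanes
  have hH : ∀ i, (H' i).map f ≤ E5 k := fun i => by rw [← hfE]; exact Subgroup.map_mono (d3 i)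
  have hHc : ∀ i, Nat.card ↥((H' i).map f) = 125 := fun i => by rw [Subgroup.card_map_of_injective hf, d4]
  have hroot : ∀ i, ∃ a, Rt a ∧ (∀ t ∈ E5 k, t ∈ (H' i).map f ↔ cX tp8 t a = 1) ∧
      (L' i).map f ≤ KK k {a, -a, act w8 a, -act w8 a} := fun i => by
    refine cent_hyp hk (hH i) (hHc i) ?_ ?_ ?_ ?_
    · rintro _ ⟨x, -, rfl⟩
      exact hfG x
    · rw [← Subgroup.map_commutator, d5]
    · intro h
      exact d6 i ((Subgroup.map_eq_bot_iff_of_injective _ hf).1 h)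
    · rintro _ ⟨x, hx, rfl⟩ _ ⟨h, hh, rfl⟩
      rw [← map_mul, ← map_mul, d7 i x hx h hh]
  choose a ha haH haL using hroot
  -- the reflections
  have hn : ∀ i, RepE k (f (n' i)) (rr (a i)) := fun i => by
    obtain ⟨v, hv⟩ := RepE.of_norm hk (hfG (n' i)) (fun t ht => by
      obtain ⟨e, he, rfl⟩ := hE2 t ht
      rw [← map_mul, ← map_inv, ← map_mul]
      exact hE1 _ (d9 i e he))
    have h2 : v ^ 2 = 1 := (hv.pow hk 2).eq_one hk fun t ht => by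
      obtain ⟨e, he, rfl⟩ := hE2 t ht
      rw [← map_pow, ← map_mul, ← map_mul, d10 i e he]
    have h1 : v ≠ 1 := by
      rintro rfl
      obtain ⟨e, he, hne⟩ := d11 i
      refine hne (hf ?_)
      rw [map_mul, map_mul]
      exact E5_comm hv.mem (hE1 e he)
    obtain ⟨c, hc, h3, h4⟩ := hv.hyp hk (hH i) (hHc i) (by
      rintro _ ⟨h, hh, rfl⟩
      rw [← map_mul, ← map_mul, d7 i _ (d8 i) h hh])
    obtain ⟨m, hm⟩ := h4 (a i) fun t ht => (haH i t (hH i ht)).1 ht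
    have hm0 : m ≠ 0 := by
      rintro rfl
      rw [zero_smul] at hm
      exact PP_ne_zero (ha i) hm
    have h5 : v = rr (a i) := refl_of hv.1 h2 h1 (ha i) fun x => by
      obtain ⟨m', hm'⟩ := h3 x
      refine ⟨m' * m⁻¹, ?_⟩
      rw [hm', hm, smul_smul, mul_assoc, inv_mul_cancel₀ hm0, mul_one]
    rwa [h5] at hv
  obtain ⟨b, hb, hab⟩ := exists_quad a ha
    (fun i j hij h => by
      obtain ⟨e, he, hne⟩ := d12 i j hij
      have h1 := (hn i).mul hk (hn j)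
      rw [h] at h1
      refine hne (hf ?_)
      rw [map_mul, map_mul, map_mul f e]
      exact E5_comm h1.mem (hE1 e he) |>.trans (by rw [map_mul]))
    (fun i j hij => (((hn i).mul hk (hn j)).pow hk 3).eq_one hk fun t ht => by
      obtain ⟨e, he, rfl⟩ := hE2 t ht
      rw [← map_mul, ← map_pow, ← map_mul, ← map_mul, d13 i j hij e he])
    (fun i j hij hij' => (((hn i).mul hk (hn j)).pow hk 2).eq_one hk fun t ht => by
      obtain ⟨e, he, rfl⟩ := hE2 t ht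
      rw [← map_mul, ← map_pow, ← map_mul, ← map_mul, d14 i j hij hij' e he])
  refine ⟨b, hb, le_inf ?_ (map_conj_le hX hg)⟩
  rw [hfX, ← d15, Subgroup.map_iSup]
  refine iSup_le fun i => (haL i).trans (KK_mono ?_)
  have h1 : a i ∈ SS b := by
    have h0 : b i ∈ SS b := Or.inl (Ph_self hb i)
    rcases hab i with h | h | h | h
    · rwa [h] at h0
    · have := SS_neg h0
      rwa [h, neg_neg] at this
    · have := SS_neg (SS_w8 h0)
      rwa [h, w8_sq, neg_neg] at this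
    · have := SS_w8 h0
      rwa [h, map_neg, w8_sq, neg_neg] at this
  rintro x (rfl | rfl | rfl | rfl)
  · exact h1
  · exact SS_neg h1
  · exact SS_w8 h1
  · exact SS_neg (SS_w8 h1)

end Cfsg.Agent.H865.EE
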