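import Cfsg.Agent.H865.EE.Main1

/-!
# The two classes (helper865, S3384)
-/

set_option autoImplicit false
set_option linter.unusedSectionVars false

namespace Cfsg.Agent.H865.EE

open CoxeterSystem Subgroup Cfsg Cfsg.Lie Cfsg.Lie.ChevalleyDatum
open Cfsg.Agent.ChevalleyStructure Cfsg.Agent.ChevalleyStructure.Elts Cfsg.Agent.ChevalleyStructure.CoxeterGeom
  Cfsg.Agent.ChevalleyStructure.CoxeterGeomTypes Cfsg.Agent.ChevalleyStructure.NPerm
open Cfsg.Agent.Tits.Roots Cfsg.Agent.Tits.Core Cfsg.Agent.Nodes Cfsg.Agent.Nodes.SubComb Cfsg.Agent.Nodes.Reps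
  Cfsg.Agent.Nodes.BNOf Cfsg.Agent.Nodes.RGDChev Cfsg.Agent.Nodes.Bruhat Cfsg.Agent.Nodes.Coroot
open Cfsg.Agent.KFacts.RgdField Cfsg.Agent.KFacts.RgdChevCoord Cfsg.Agent.BpExc.TorCent Cfsg.Agent.BpExc.TorChev
open Cfsg.Agent.GpExc.Field Cfsg.Agent.BpExc.Tow Cfsg.Agent.BpExc.TowChev Cfsg.Agent.BpExc.Fr
  Cfsg.Agent.BpExc.LangFr Cfsg.Agent.BpExc.FamField Cfsg.Agent.BpExc.FamInst Cfsg.Agent.H129.TorusChar
  Cfsg.Agent.H795.LangT Cfsg.Agent.BpExc.FamExt Cfsg.Agent.BpExc.FamUntw Cfsg.Agent.H378.TorDual Cfsg.Agent.H378.TorChar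
  Cfsg.Agent.H378.TorFin Cfsg.Agent.H378.RankOne Cfsg.Agent.H378.RootTor

attribute [local irreducible] w8

universe u

/-! ### The sets `SS b` -/

theorem Quad.act_ {b : Fin 4 → Fin 8 → ℤ} (hb : Quad b) {v : W8} (hv : v ∈ CW) : Quad fun i => act v (b i) where
  root i := rt_act (hb.root i) v
  ad i j hij := by rw [bf_act, hb.ad i j hij]
  orth i j := by rw [← mem_CW.1 hv, bf_act, hb.orth i j]

theorem mem_Ph_act {b : Fin 4 → Fin 8 → ℤ} {v : W8} {x : Fin 8 → ℤ} : act v x ∈ Ph (fun i => act v (b i)) ↔ x ∈ Ph b := by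
  constructor
  · rintro ⟨h, c, hc⟩
    have h1 : act v⁻¹ (act v x) = x := rep_inv_apply _ _ _ _
    refine ⟨?_, c, ?_⟩
    · rw [← h1]; exact rt_act h _
    · rw [← h1, hc, map_sum]
      refine Finset.sum_congr rfl fun i _ => ?_
      rw [map_smul]
      congr 1
      exact rep_inv_apply _ _ _ _
  · rintro ⟨h, c, hc⟩
    refine ⟨rt_act h v, c, ?_⟩
    rw [hc, map_sum]
    exact Finset.sum_congr rfl fun i _ => by rw [map_smul]

theorem mem_SS_act {b : Fin 4 → Fin 8 → ℤ} {v : W8} (hv : v ∈ CW) {x : Fin 8 → ℤ} :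
    act v x ∈ SS (fun i => act v (b i)) ↔ x ∈ SS b := by
  have h1 : ∀ y, act v⁻¹ (act v y) = y := fun y => rep_inv_apply _ _ _ _
  constructor
  · rintro (h | ⟨a', h, e⟩)
    · exact Or.inl (mem_Ph_act.1 h)
    · refine Or.inr ⟨act v⁻¹ a', ?_, ?_⟩
      · rw [← mem_Ph_act (v := v), show act v (act v⁻¹ a') = a' from rep_apply_inv _ _ _ _]
        exact h
      · rw [← h1 x, e, mem_CW.1 (inv_mem hv)]
  · rintro (h | ⟨a', h, rfl⟩)
    · exact Or.inl (mem_Ph_act.2 h)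
    · exact Or.inr ⟨act v a', mem_Ph_act.2 h, mem_CW.1 hv a'⟩

variable {k : Type} [Field k] [CharP k 2] [PerfectRing k 2] [IsAlgClosed k] (hk : LocFin k)

theorem XB_congr {b b' : Fin 4 → Fin 8 → ℤ} (h : SS b = SS b') : XB k b = XB k b' := by
  rw [XB, XB, h]

include hk in
/-- conjugation by `nu v` and the sets `SS b` -/
theorem conj_XB' {v : W8} (hv : v ∈ CW) {b q : Fin 4 → Fin 8 → ℤ} (h : ∀ x, x ∈ SS b ↔ act v x ∈ SS q) :
    (XB k b).map (MulAut.conj (nu tp8 k v)).toMonoidHom = XB k q := by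
  rw [conj_XB hk hv]
  apply XB_congr
  ext y
  have h1 : act v (act v⁻¹ y) = y := rep_apply_inv _ _ _ _
  rw [← h1, mem_SS_act hv, h]

theorem XB_le (b : Fin 4 → Fin 8 → ℤ) : XB k b ≤ GG k := inf_le_right

theorem map_conj_map {G : Type*} [Group G] (X : Subgroup G) (g h : G) :
    (X.map (MulAut.conj g).toMonoidHom).map (MulAut.conj h).toMonoidHom = X.map (MulAut.conj (h * g)).toMonoidHom := by
  rw [Subgroup.map_map]
  congr 1
  ext x
  show h * (g * x * g⁻¹) * h⁻¹ = h * g * x * (h * g)⁻¹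
  group

theorem map_conj_one {G : Type*} [Group G] (X : Subgroup G) : X.map (MulAut.conj (1 : G)).toMonoidHom = X := by
  ext x
  constructor
  · rintro ⟨y, hy, rfl⟩
    show 1 * y * 1⁻¹ ∈ X
    simpa using hy
  · intro hx
    exact ⟨x, hx, by show 1 * x * 1⁻¹ = x; simp⟩

theorem map_conj_mem {G : Type*} [Group G] {X : Subgroup G} {g : G} (hg : g ∈ X) :
    X.map (MulAut.conj g).toMonoidHom = X := by
  ext x
  constructor
  · rintro ⟨y, hy, rfl⟩
    exact mul_mem (mul_mem hg hy) (inv_mem hg)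
  · intro hx
    refine ⟨g⁻¹ * x * g, mul_mem (mul_mem (inv_mem hg) hx) hg, ?_⟩
    show g * (g⁻¹ * x * g) * g⁻¹ = x
    group

variable (F : Type u) [Field F] [Fintype F] (hF : Fintype.card F = 4)

include hk hF in
theorem finite_XB {b : Fin 4 → Fin 8 → ℤ} (hb : Quad b) : Finite ↥(XB k b) := by
  obtain ⟨e⟩ := xb_iso hk hb F hF
  have := om_fin F hF
  exact Finite.of_equiv _ e.symm.toEquiv

include hk hF in
/-- **(i)** classification up to conjugacy -/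
theorem exists_conj {X : Subgroup ↥(chevE8.group k)} (hX : X ≤ GG k)
    (hiso : Nonempty (↥X ≃* ↥(Cfsg.Omega F (Cfsg.quadFormPlus 4 F)))) :
    ∃ g ∈ GG k, X.map (MulAut.conj g).toMonoidHom = XB k q1 ∨ X.map (MulAut.conj g).toMonoidHom = XB k q2 := by
  obtain ⟨e⟩ := hiso
  obtain ⟨g, hg, b, hb, hle⟩ := exists_conj_le hk hX ((d4sys F hF).congr e.symm)
  have h1 : X.map (MulAut.conj g).toMonoidHom = XB k b := by
    have := finite_XB hk F hF hb
    obtain ⟨e'⟩ := xb_iso hk hb F hF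
    refine Subgroup.eq_of_le_of_card_ge hle ?_
    rw [Subgroup.card_map_of_injective (MulAut.conj g).injective, Nat.card_congr e.toEquiv, Nat.card_congr e'.toEquiv]
  obtain ⟨v, hv, h⟩ := combi hb
  refine ⟨nu tp8 k v * g, mul_mem (nu_mem_GG hk hv) hg, ?_⟩
  rcases h with h | h
  · exact Or.inl (by rw [← map_conj_map, h1, conj_XB' hk hv h])
  · exact Or.inr (by rw [← map_conj_map, h1, conj_XB' hk hv h])

include hk hF in
/-- Sylow in `XB k b` -/
theorem syl_XB {b : Fin 4 → Fin 8 → ℤ} (hb : Quad b) {A : Subgroup ↥(chevE8.group k)} (hA : A ≤ XB k b)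
    (hc : Nat.card ↥A = 625) : ∃ g ∈ XB k b, A.map (MulAut.conj g).toMonoidHom = E5 k := by
  have := finite_XB hk F hF hb
  have hE : E5 k ≤ XB k b := e5_le hk hb
  have hcard : ∀ {B : Subgroup ↥(chevE8.group k)}, B ≤ XB k b → Nat.card ↥(B.subgroupOf (XB k b)) = Nat.card ↥B :=
    fun {B} h => Nat.card_congr (Subgroup.subgroupOfEquivOfLe h).toEquiv
  have h5 : ¬ 5 ^ 5 ∣ Nat.card ↥(XB k b) := by
    obtain ⟨e'⟩ := xb_iso hk hb F hF
    rw [Nat.card_congr e'.toEquiv]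
    exact om_card F hF
  obtain ⟨g, hg⟩ := conj_syl h5 (E := (E5 k).subgroupOf (XB k b)) (A := A.subgroupOf (XB k b))
    (by rw [hcard hE, card_E5 hk]) (by rw [hcard hA, hc])
  refine ⟨g.1, g.2, ?_⟩
  ext y
  constructor
  · rintro ⟨a, ha, rfl⟩
    have h1 : (⟨a, hA ha⟩ : ↥(XB k b)) ∈ A.subgroupOf (XB k b) := Subgroup.mem_subgroupOf.2 ha
    have h2 : g * ⟨a, hA ha⟩ * g⁻¹ ∈ (E5 k).subgroupOf (XB k b) := by
      rw [← hg]; exact ⟨_, h1, rfl⟩
    exact Subgroup.mem_subgroupOf.1 h2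
  · intro hy
    have h1 : (⟨y, hE hy⟩ : ↥(XB k b)) ∈ (E5 k).subgroupOf (XB k b) := Subgroup.mem_subgroupOf.2 hy
    rw [← hg] at h1
    obtain ⟨a, ha, h2⟩ := h1
    exact ⟨a.1, Subgroup.mem_subgroupOf.1 ha, congrArg Subtype.val h2⟩

include hk in
/-- elements of `GG k` conjugating `XB k b` to `XB k b'` and normalising `E5 k` -/
theorem of_conj_norm {b b' : Fin 4 → Fin 8 → ℤ} (hb : Quad b) (hb' : Quad b') {y : ↥(chevE8.group k)} (hy : y ∈ GG k)
    (hE : ∀ t ∈ E5 k, y * t * y⁻¹ ∈ E5 k) (h : (XB k b).map (MulAut.conj y).toMonoidHom = XB k b') :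
    ∃ v, RepE k y v ∧ ∀ x, x ∈ SS b ↔ act v x ∈ SS b' := by
  obtain ⟨v, hv⟩ := RepE.of_norm hk hy hE
  refine ⟨v, hv, fun x => ?_⟩
  obtain ⟨hvC, t, ht, rfl⟩ := id hv
  have h1 : XB k (fun i => act v (b i)) = XB k b' := by
    rw [← conj_XB hk hvC, ← h, ← map_conj_map, map_conj_mem (e5_le hk hb ht)]
  rw [← ss_of_xb hk (hb.act_ hvC) hb' h1, mem_SS_act hvC]

include hk hF in
/-- **(ii)** `XB k q1` and `XB k q2` are not conjugate. -/
theorem not_conj {g : ↥(chevE8.group k)} (hg : g ∈ GG k) : (XB k q1).map (MulAut.conj g).toMonoidHom ≠ XB k q2 := by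
  intro h
  have hle : (E5 k).map (MulAut.conj g).toMonoidHom ≤ XB k q2 := by
    rw [← h]; exact Subgroup.map_mono (e5_le hk quad_q1)
  obtain ⟨x, hx, hxE⟩ := syl_XB hk F hF quad_q2 hle (by
    rw [Subgroup.card_map_of_injective (MulAut.conj g).injective, card_E5 hk])
  rw [map_conj_map] at hxE
  obtain ⟨v, hv, hS⟩ := of_conj_norm hk quad_q1 quad_q2 (y := x * g) (mul_mem (XB_le _ hx) hg) (fun t ht => by
    rw [← hxE]; exact ⟨t, ht, rfl⟩) (by rw [← map_conj_map, h, map_conj_mem hx])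
  exact combi2 ⟨v, hv.1, hS⟩

include hk hF in
/-- **(iii)** the centraliser of `XB k b` is trivial. -/
theorem cent_XB {b : Fin 4 → Fin 8 → ℤ} (hb : Quad b) {y : ↥(chevE8.group k)} (hy : y ∈ GG k)
    (h : ∀ x ∈ XB k b, x * y = y * x) : y = 1 := by
  have h1 : y ∈ TT chevE8 k := cent_E5 hk fun t ht => (h t (e5_le hk hb ht)).symm
  have h2 : y ∈ XB k b := e5_le hk hb ⟨h1, hy⟩
  obtain ⟨e⟩ := xb_iso hk hb F hF
  have hs := om_simple F hF
  have h3 : e ⟨y, h2⟩ ∈ Subgroup.center ↥(Cfsg.Omega F (Cfsg.quadFormPlus 4 F)) := by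
    rw [Subgroup.mem_center_iff]
    intro z
    obtain ⟨x, rfl⟩ := e.surjective z
    rw [← map_mul, ← map_mul]
    congr 1
    exact Subtype.ext (h x.1 x.2)
  have h4 : Subgroup.center ↥(Cfsg.Omega F (Cfsg.quadFormPlus 4 F)) = ⊥ := by
    rcases hs.eq_bot_or_eq_top_of_normal _ (inferInstance : (Subgroup.center _).Normal) with h | h
    · exact h
    · obtain ⟨a, b', hab⟩ := om_nc F hF
      have : a ∈ Subgroup.center ↥(Cfsg.Omega F (Cfsg.quadFormPlus 4 F)) := by rw [h]; exact Subgroup.mem_top _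
      exact absurd ((Subgroup.mem_center_iff.1 this) b').symm hab
  rw [h4, Subgroup.mem_bot] at h3
  have h5 : (⟨y, h2⟩ : ↥(XB k b)) = 1 := e.injective (by rw [h3, map_one])
  exact congrArg Subtype.val h5

include hk in
theorem RepE.inv {y : ↥(chevE8.group k)} {v : W8} (h : RepE k y v) : RepE k y⁻¹ v⁻¹ := by
  obtain ⟨hv, t, ht, rfl⟩ := h
  refine ⟨inv_mem hv, _, nu_conj_E5 hk hv (inv_mem ht), ?_⟩
  rw [mul_inv_rev, map_inv]
  group

include hk in
theorem RepE.mem_GG {y : ↥(chevE8.group k)} {v : W8} (h : RepE k y v) : y ∈ GG k := by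
  obtain ⟨hv, t, ht, rfl⟩ := h
  exact mul_mem (nu_mem_GG hk hv) (Subgroup.mem_inf.1 ht).2

include hk in
/-- the number of elements representing elements of a subgroup of `CW` -/
theorem card_RepE {S : Subgroup W8} (hS : S ≤ CW) :
    Nat.card {y : ↥(chevE8.group k) // ∃ v ∈ S, RepE k y v} = Nat.card ↥S * 625 := by
  have hkey : ∀ (v v' : W8) (t t' : ↥(chevE8.group k)), v ∈ S → v' ∈ S → t ∈ E5 k → t' ∈ E5 k →
      nu tp8 k v * t = nu tp8 k v' * t' → v = v' ∧ t = t' := by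
    intro v v' t t' hv hv' ht ht' h
    have h1 : RepE k (t' * t⁻¹) (v'⁻¹ * v) := by
      refine ⟨mul_mem (inv_mem (hS hv')) (hS hv), 1, one_mem _, ?_⟩
      rw [mul_one, map_mul, map_inv, eq_inv_mul_iff_mul_eq, ← mul_assoc, ← h]
      group
    have h2 : v'⁻¹ * v = 1 := h1.eq_one hk fun s hs => E5_comm (mul_mem ht' (inv_mem ht)) hs
    have h3 : v = v' := by rw [← mul_one v', ← h2, mul_inv_cancel_left]
    subst h3
    exact ⟨rfl, mul_left_cancel h⟩
  have e : (↥S × ↥(E5 k)) ≃ {y : ↥(chevE8.group k) // ∃ v ∈ S, RepE k y v} :=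
    Equiv.ofBijective (fun p => ⟨nu tp8 k p.1.1 * p.2.1, p.1.1, p.1.2, hS p.1.2, p.2.1, p.2.2, rfl⟩) (by
      constructor
      · rintro ⟨v, t⟩ ⟨v', t'⟩ h
        obtain ⟨h1, h2⟩ := hkey v.1 v'.1 t.1 t'.1 v.2 v'.2 t.2 t'.2 (congrArg Subtype.val h)
        exact Prod.ext (Subtype.ext h1) (Subtype.ext h2)
      · rintro ⟨y, v, hv, hvC, t, ht, rfl⟩
        exact ⟨⟨⟨v, hv⟩, ⟨t, ht⟩⟩, rfl⟩)
  rw [← Nat.card_congr e, Nat.card_prod, card_E5 hk]

/-- the subgroup generated by the reflections -/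
noncomputable def RB (b : Fin 4 → Fin 8 → ℤ) : Subgroup W8 := Subgroup.closure (Set.range fun i => rr (b i))

include hk hF in
/-- **(iv)** the order of the normaliser -/
theorem card_norm {b : Fin 4 → Fin 8 → ℤ} (hb : Quad b) {m : ℕ} (hm : (RB b).relIndex (SB b) = m) :
    Nat.card ↥(normalizer ((XB k b).subgroupOf (GG k) : Set ↥(GG k))) = m * Nat.card ↥(XB k b) := by
  have := finite_GG hk
  have := finite_XB hk F hF hb
  have hXG := XB_le (k := k) b
  have hEX := e5_le hk hb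
  have hEG : E5 k ≤ GG k := inf_le_right
  have hcard : ∀ {B : Subgroup ↥(chevE8.group k)}, B ≤ GG k → Nat.card ↥(B.subgroupOf (GG k)) = Nat.card ↥B :=
    fun {B} h => Nat.card_congr (Subgroup.subgroupOfEquivOfLe h).toEquiv
  have hfr := frattini (G := ↥(GG k)) (X := (XB k b).subgroupOf (GG k)) (E := (E5 k).subgroupOf (GG k))
    (Subgroup.comap_mono hEX) (fun A hA hAc => by
      obtain ⟨g, hg, h⟩ := syl_XB hk F hF hb (A := A.map (GG k).subtype) (by
        rintro _ ⟨x, hx, rfl⟩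
        exact Subgroup.mem_subgroupOf.1 (hA hx)) (by
        rw [Subgroup.card_map_of_injective (GG k).subtype_injective, hAc, hcard hEG, card_E5 hk])
      refine ⟨⟨g, hXG hg⟩, Subgroup.mem_subgroupOf.2 hg, ?_⟩
      ext y
      rw [Subgroup.mem_subgroupOf, ← h]
      constructor
      · rintro ⟨x, hx, rfl⟩
        exact ⟨x.1, ⟨x, hx, rfl⟩, rfl⟩
      · rintro ⟨_, ⟨x, hx, rfl⟩, e⟩
        exact ⟨x, hx, Subtype.ext e⟩)
  have hRS : RB b ≤ SB b := by
    refine (Subgroup.closure_le _).2 ?_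
    rintro _ ⟨i, rfl⟩
    have h1 : rr (b i) ∈ CW := rr_mem_CW (hb.root i)
    refine ⟨h1, fun x => ?_⟩
    have h2 : nu tp8 k (rr (b i)) ∈ XB k b := nu_mem hk hb (Subgroup.subset_closure ⟨i, rfl⟩)
    have h3 := conj_XB hk h1 b
    rw [map_conj_mem h2] at h3
    have h4 := ss_of_xb hk hb (hb.act_ h1) h3
    exact (mem_SS_act h1 (b := b)).symm.trans (by rw [← h4])
  have hnE : ∀ {y : ↥(GG k)} {v : W8}, RepE k y.1 v → y ∈ normalizer ((E5 k).subgroupOf (GG k) : Set ↥(GG k)) := by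
    intro y v hy
    rw [Subgroup.mem_normalizer_iff]
    intro t
    have h1 : ∀ {z : ↥(chevE8.group k)} {w : W8}, RepE k z w → ∀ t ∈ E5 k, z * t * z⁻¹ ∈ E5 k := fun {z w} hz t ht => by
      rw [hz.conj hk ht]; exact nu_conj_E5 hk hz.1 ht
    constructor
    · intro ht
      exact Subgroup.mem_subgroupOf.2 (h1 hy _ (Subgroup.mem_subgroupOf.1 ht))
    · intro ht
      have h2 := h1 (hy.inv hk) _ (Subgroup.mem_subgroupOf.1 ht)
      have h3 : y.1⁻¹ * ((y * t * y⁻¹ : ↥(GG k)) : ↥(chevE8.group k)) * (y.1⁻¹)⁻¹ = t.1 := by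
        show y.1⁻¹ * (y.1 * t.1 * y.1⁻¹) * (y.1⁻¹)⁻¹ = t.1
        group
      rw [h3] at h2
      exact Subgroup.mem_subgroupOf.2 h2
  have hnE' : ∀ {y : ↥(GG k)}, y ∈ normalizer ((E5 k).subgroupOf (GG k) : Set ↥(GG k)) →
      ∀ t ∈ E5 k, y.1 * t * y.1⁻¹ ∈ E5 k := by
    intro y hy t ht
    exact Subgroup.mem_subgroupOf.1 ((Subgroup.mem_normalizer_iff.1 hy ⟨t, hEG ht⟩).1 (Subgroup.mem_subgroupOf.2 ht))
  -- count of `X ⊓ N(E)`
  have hA1 : Nat.card ↥((XB k b).subgroupOf (GG k) ⊓ normalizer ((E5 k).subgroupOf (GG k) : Set ↥(GG k))) =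
      Nat.card ↥(RB b) * 625 := by
    rw [← card_RepE hk (hRS.trans fun v hv => hv.1)]
    refine Nat.card_congr ⟨fun y => ⟨y.1.1, ?_⟩, fun y => ⟨⟨y.1, ?_⟩, ?_⟩, fun y => rfl, fun y => rfl⟩
    · obtain ⟨v, hv⟩ := RepE.of_norm hk y.1.2 (hnE' y.2.2)
      refine ⟨v, ?_, hv⟩
      obtain ⟨hvC, t, ht, e⟩ := hv
      exact mem_of_nu_mem hk hb ht.1 (e ▸ Subgroup.mem_subgroupOf.1 y.2.1)
    · obtain ⟨v, -, hv⟩ := y.2
      exact hv.mem_GG hk
    · obtain ⟨v, hvR, hv⟩ := y.2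
      refine Subgroup.mem_inf.2 ⟨Subgroup.mem_subgroupOf.2 ?_, hnE hv⟩
      obtain ⟨hvC, t, ht, e⟩ := hv
      show y.1 ∈ XB k b
      rw [e]
      exact mul_mem (nu_mem hk hb hvR) (hEX ht)
  have hA2 : Nat.card ↥(normalizer ((XB k b).subgroupOf (GG k) : Set ↥(GG k)) ⊓
      normalizer ((E5 k).subgroupOf (GG k) : Set ↥(GG k))) = Nat.card ↥(SB b) * 625 := by
    rw [← card_RepE hk (S := SB b) (fun v hv => hv.1)]
    refine Nat.card_congr ⟨fun y => ⟨y.1.1, ?_⟩, fun y => ⟨⟨y.1, ?_⟩, ?_⟩, fun y => rfl, fun y => rfl⟩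
    · have h1 : (XB k b).map (MulAut.conj y.1.1).toMonoidHom = XB k b := by
        ext z
        constructor
        · rintro ⟨x, hx, rfl⟩
          exact Subgroup.mem_subgroupOf.1 ((Subgroup.mem_normalizer_iff.1 y.2.1 ⟨x, hXG hx⟩).1
            (Subgroup.mem_subgroupOf.2 hx))
        · intro hz
          have h2 := (Subgroup.mem_normalizer_iff.1 y.2.1 (y.1⁻¹ * ⟨z, hXG hz⟩ * y.1)).2 (Subgroup.mem_subgroupOf.2 (by
            have : y.1 * (y.1⁻¹ * ⟨z, hXG hz⟩ * y.1) * y.1⁻¹ = (⟨z, hXG hz⟩ : ↥(GG k)) := by group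
            rw [this]; exact hz))
          refine ⟨_, Subgroup.mem_subgroupOf.1 h2, ?_⟩
          show y.1.1 * (y.1.1⁻¹ * z * y.1.1) * y.1.1⁻¹ = z
          group
      obtain ⟨v, hv, hS⟩ := of_conj_norm hk hb hb y.1.2 (hnE' y.2.2) h1
      exact ⟨v, ⟨hv.1, hS⟩, hv⟩
    · obtain ⟨v, -, hv⟩ := y.2
      exact hv.mem_GG hk
    · obtain ⟨v, hvS, hv⟩ := y.2
      refine Subgroup.mem_inf.2 ⟨?_, hnE hv⟩
      have h1 : (XB k b).map (MulAut.conj y.1).toMonoidHom = XB k b := by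
        obtain ⟨hvC, t, ht, e⟩ := hv
        rw [e, ← map_conj_map, map_conj_mem (hEX ht), conj_XB' hk hvC hvS.2]
      rw [Subgroup.mem_normalizer_iff]
      intro x
      rw [Subgroup.mem_subgroupOf, Subgroup.mem_subgroupOf]
      constructor
      · intro hx
        rw [← h1]
        exact ⟨x.1, hx, rfl⟩
      · intro hx
        rw [← h1] at hx
        obtain ⟨x', hx', e⟩ := hx
        have e2 : x' = x.1 := mul_left_cancel (mul_right_cancel (e : y.1 * x' * y.1⁻¹ = y.1 * x.1 * y.1⁻¹))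
        rwa [← e2]
  rw [hA1, hA2, hcard hXG] at hfr
  have hSR : Nat.card ↥(SB b) = Nat.card ↥(RB b) * m := by
    rw [← hm, Subgroup.relIndex, ← Nat.card_congr (Subgroup.subgroupOfEquivOfLe hRS).toEquiv, Subgroup.card_mul_index]
  rw [hSR] at hfr
  have hpos : 0 < Nat.card ↥(RB b) * 625 := Nat.mul_pos Nat.card_pos (by norm_num)
  refine Nat.eq_of_mul_eq_mul_right hpos (hfr.trans ?_)
  ring

end Cfsg.Agent.H865.EE
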