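import Cfsg.Agent.H865.EE.PP

/-!
# The torus `E5 k`: order, hyperplanes (helper865, S3384)

* `card_E5 : Nat.card (E5 k) = 625`;
* `exists_hyp` : a subgroup `H ≤ E5 k` of order 125 is `{t | cX t x₀ = 1}` for some `x₀` with `PP x₀ ≠ 0`;
* `PP_line'` : characters trivial on `H` are the multiples of `PP x₀`.
-/

set_option autoImplicit false
set_option linter.unusedSectionVars false

namespace Cfsg.Agent.H865.EE

open CoxeterSystem Subgroup Cfsg Cfsg.Lie Cfsg.Lie.ChevalleyDatum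
open Cfsg.Agent.ChevalleyStructure Cfsg.Agent.ChevalleyStructure.Elts Cfsg.Agent.ChevalleyStructure.CoxeterGeom
  Cfsg.Agent.ChevalleyStructure.CoxeterGeomTypes Cfsg.Agent.ChevalleyStructure.NPerm
open Cfsg.Agent.Tits.Roots Cfsg.Agent.Tits.Core Cfsg.Agent.Nodes Cfsg.Agent.Nodes.SubComb Cfsg.Agent.Nodes.Reps
  Cfsg.Agent.Nodes.BNOf Cfsg.Agent.Nodes.RGDChev Cfsg.Agent.Nodes.Bruhat Cfsg.Agent.Nodes.Coroot
open Cfsg.Agent.KFacts.RgdField Cfsg.Agent.KFacts.RgdChevCoord Cfsg.Agent.BpExc.TorCent Cfsg.Agent.BpExc.TorChev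
open Cfsg.Agent.GpExc.Field Cfsg.Agent.BpExc.Tow Cfsg.Agent.BpExc.TowChev Cfsg.Agent.BpExc.Fr
  Cfsg.Agent.BpExc.LangFr Cfsg.Agent.BpExc.FamField Cfsg.Agent.BpExc.FamInst Cfsg.Agent.H129.TorusChar
  Cfsg.Agent.H795.LangT Cfsg.Agent.BpExc.FamExt Cfsg.Agent.BpExc.FamUntw Cfsg.Agent.H378.TorDual Cfsg.Agent.H378.TorChar
  Cfsg.Agent.H378.TorFin Cfsg.Agent.H378.RankOne Cfsg.Agent.H378.RootTor

attribute [local irreducible] w8

/-- the characters of `E5 k` as a vector space -/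
abbrev V4 := Fin 4 → ZMod 5

instance : Fact (Nat.Prime 5) := ⟨by norm_num⟩

variable {k : Type} [Field k] [CharP k 2] [PerfectRing k 2] [IsAlgClosed k] (hk : LocFin k)

theorem zval_add {ζ : k} (hζ : IsPrimitiveRoot ζ 5) (a b : ZMod 5) : ζ ^ (a + b).val = ζ ^ a.val * ζ ^ b.val := by
  rw [← pow_add]
  exact pow_eq_pow_of_modEq (by rw [ZMod.val_add]; exact Nat.mod_modEq _ _) hζ.pow_eq_one

theorem zval_inj {ζ : k} (hζ : IsPrimitiveRoot ζ 5) {a b : ZMod 5} (h : ζ ^ a.val = ζ ^ b.val) : a = b :=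
  ZMod.val_injective 5 (hζ.pow_inj (ZMod.val_lt a) (ZMod.val_lt b) h)

include hk in
/-- the isomorphism of the dual space with `E5 k` -/
theorem exists_iso {ζ : k} (hζ : IsPrimitiveRoot ζ 5) :
    ∃ e : Multiplicative (Module.Dual (ZMod 5) V4) ≃* ↥(E5 k), ∀ φ x,
      cX tp8 (e (Multiplicative.ofAdd φ)).1 x = ζ ^ (φ (PP x)).val := by
  have h1 : ∀ φ : Module.Dual (ZMod 5) V4, ∃ t ∈ E5 k, ∀ x, cX tp8 t x = ζ ^ (φ (PP x)).val := fun φ =>
    exists_E5 hk hζ φ.toAddMonoidHom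
  choose f hf hc using h1
  have hinj : ∀ {s t : ↥(chevE8.group k)}, s ∈ E5 k → t ∈ E5 k → (∀ x, cX tp8 s x = cX tp8 t x) → s = t :=
    fun hs ht h => cX_inj tp8 hs.1 ht.1 fun i => h _
  let F : Multiplicative (Module.Dual (ZMod 5) V4) →* ↥(E5 k) :=
    MonoidHom.mk' (fun φ => ⟨f φ.toAdd, hf _⟩) (fun φ ψ => by
      apply Subtype.ext
      show f (φ.toAdd + ψ.toAdd) = f φ.toAdd * f ψ.toAdd
      refine hinj (hf _) (mul_mem (hf _) (hf _)) fun x => ?_
      rw [cX_mul tp8 (hf _).1 (hf _).1, hc, hc, hc, LinearMap.add_apply, zval_add hζ])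
  have hFi : Function.Injective F := by
    intro φ ψ h
    have h1 : f φ.toAdd = f ψ.toAdd := congrArg Subtype.val h
    have h2 : ∀ c, φ.toAdd c = ψ.toAdd c := fun c => by
      obtain ⟨x, rfl⟩ := PP_surj c
      apply zval_inj hζ
      rw [← hc, ← hc, h1]
    exact LinearMap.ext h2
  have hFs : Function.Surjective F := by
    intro t
    have h1 : ∀ x, ∃ a : ZMod 5, cX tp8 t.1 x = ζ ^ a.val := fun x => by
      obtain ⟨i, hi, h⟩ := hζ.eq_pow_of_pow_eq_one (cX_E5_pow hk t.2 x)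
      refine ⟨(i : ZMod 5), ?_⟩
      rw [ZMod.val_natCast, Nat.mod_eq_of_lt hi, h]
    choose g hg using h1
    have hgP : ∀ x y, PP x = PP y → g x = g y := fun x y h => by
      apply zval_inj hζ
      rw [← hg, ← hg, cX_eq_of_PP hk t.2 h]
    have hm := isMC_cX tp8 t.2.1
    have hga : ∀ x y, g (x + y) = g x + g y := fun x y => by
      apply zval_inj hζ
      rw [← hg, hm.add, hg, hg, zval_add hζ]
    choose s hs using PP_surj
    let φ0 : V4 →+ ZMod 5 := AddMonoidHom.mk' (fun c => g (s c)) (fun a b => by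
      rw [← hga]
      exact hgP _ _ (by rw [hs, map_add, hs, hs]))
    have hφ : ∀ x, φ0 (PP x) = g x := fun x => hgP _ _ (hs _)
    refine ⟨Multiplicative.ofAdd (φ0.toZModLinearMap 5), Subtype.ext (hinj (hf _) t.2 fun x => ?_)⟩
    show cX tp8 (f (φ0.toZModLinearMap 5)) x = _
    rw [hc, AddMonoidHom.coe_toZModLinearMap, hφ, hg]
  refine ⟨MulEquiv.ofBijective F ⟨hFi, hFs⟩, fun φ x => ?_⟩
  exact hc φ x

include hk in
theorem card_E5 : Nat.card ↥(E5 k) = 625 := by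
  obtain ⟨ζ, hζ⟩ := exists_zeta k
  obtain ⟨e, -⟩ := exists_iso hk hζ
  rw [← Nat.card_congr e.toEquiv, Nat.card_congr Multiplicative.toAdd, Module.natCard_eq_pow_finrank (K := ZMod 5),
    Subspace.dual_finrank_eq, Module.finrank_fin_fun, Nat.card_eq_fintype_card, ZMod.card]
  norm_num

include hk in
/-- **Hyperplanes.** -/
theorem exists_hyp {H : Subgroup ↥(chevE8.group k)} (hH : H ≤ E5 k) (hc : Nat.card ↥H = 125) :
    ∃ x₀ : Fin 8 → ℤ, PP x₀ ≠ 0 ∧ (∀ t, t ∈ H ↔ t ∈ E5 k ∧ cX tp8 t x₀ = 1) ∧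
      ∀ x, (∀ t ∈ H, cX tp8 t x = 1) → ∃ c : ZMod 5, PP x = c • PP x₀ := by
  obtain ⟨ζ, hζ⟩ := exists_zeta k
  obtain ⟨e, he⟩ := exists_iso hk hζ
  -- the subspace
  let K0 : AddSubgroup (Module.Dual (ZMod 5) V4) :=
    { carrier := {φ | (e (Multiplicative.ofAdd φ)).1 ∈ H}
      zero_mem' := by
        show (e 1).1 ∈ H
        rw [map_one]; exact one_mem _
      add_mem' := fun {a b} ha hb => by
        show (e (Multiplicative.ofAdd a * Multiplicative.ofAdd b)).1 ∈ H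
        rw [map_mul]; exact mul_mem ha hb
      neg_mem' := fun {a} ha => by
        show (e (Multiplicative.ofAdd a)⁻¹).1 ∈ H
        rw [map_inv]; exact inv_mem ha }
  let K : Submodule (ZMod 5) (Module.Dual (ZMod 5) V4) := AddSubgroup.toZModSubmodule 5 K0
  have hK : ∀ φ, φ ∈ K ↔ (e (Multiplicative.ofAdd φ)).1 ∈ H := fun φ => by
    rw [AddSubgroup.mem_toZModSubmodule]; rfl
  have hcK : Nat.card ↥K = 125 := by
    rw [← hc]
    refine Nat.card_congr ⟨fun φ => ⟨_, (hK φ.1).1 φ.2⟩, fun t => ⟨(e.symm ⟨t.1, hH t.2⟩).toAdd, (hK _).2 ?_⟩, ?_, ?_⟩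
    · show (e (e.symm ⟨t.1, hH t.2⟩)).1 ∈ H
      rw [MulEquiv.apply_symm_apply]; exact t.2
    · intro φ
      apply Subtype.ext
      show (e.symm ⟨(e (Multiplicative.ofAdd φ.1)).1, _⟩).toAdd = φ.1
      have : (⟨(e (Multiplicative.ofAdd φ.1)).1, hH ((hK φ.1).1 φ.2)⟩ : ↥(E5 k)) = e (Multiplicative.ofAdd φ.1) := rfl
      rw [this, MulEquiv.symm_apply_apply]; rfl
    · intro t
      apply Subtype.ext
      show (e (e.symm ⟨t.1, hH t.2⟩)).1 = t.1
      rw [MulEquiv.apply_symm_apply]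
  have hrK : Module.finrank (ZMod 5) ↥K = 3 := by
    have h1 : Nat.card ↥K = 5 ^ Module.finrank (ZMod 5) ↥K := by
      rw [Module.natCard_eq_pow_finrank (K := ZMod 5), Nat.card_eq_fintype_card, ZMod.card]
    rw [hcK] at h1
    exact (Nat.pow_right_injective (le_refl 2 |>.trans (by norm_num)) (h1.symm.trans (by norm_num : 125 = 5 ^ 3))).symm ▸ rfl
  let J : Submodule (ZMod 5) V4 := K.dualCoannihilator
  have hrJ : Module.finrank (ZMod 5) ↥J = 1 := by
    have h1 := Subspace.finrank_add_finrank_dualCoannihilator_eq K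
    rw [hrK, Module.finrank_fin_fun] at h1
    show Module.finrank (ZMod 5) ↥K.dualCoannihilator = 1
    omega
  obtain ⟨c0, hc0, hspan⟩ := finrank_eq_one_iff'.1 hrJ
  obtain ⟨x₀, hx⟩ := PP_surj c0.1
  have hJ : ∀ c, c ∈ J ↔ ∀ φ ∈ K, φ c = 0 := fun c => Submodule.mem_dualCoannihilator _
  have hone : ∀ φ x, cX tp8 (e (Multiplicative.ofAdd φ)).1 x = 1 ↔ φ (PP x) = 0 := fun φ x => by
    rw [he]
    constructor
    · intro h
      apply zval_inj hζ
      rw [h, ZMod.val_zero, pow_zero]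
    · intro h
      rw [h, ZMod.val_zero, pow_zero]
  have hKK : ∀ φ, φ ∈ K ↔ φ c0.1 = 0 := by
    intro φ
    constructor
    · exact fun h => (hJ _).1 c0.2 φ h
    · intro h
      have h1 : K.dualCoannihilator.dualAnnihilator = K := Subspace.dualCoannihilator_dualAnnihilator_eq
      rw [← h1, Submodule.mem_dualAnnihilator]
      intro w hw
      obtain ⟨m, hm⟩ := hspan ⟨w, hw⟩
      have h2 : w = m • c0.1 := (congrArg Subtype.val hm).symm
      rw [h2, map_smul, h, smul_zero]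
  refine ⟨x₀, ?_, ?_, ?_⟩
  · rw [hx]
    exact fun h => hc0 (Subtype.ext h)
  · intro t
    constructor
    · intro ht
      refine ⟨hH ht, ?_⟩
      have h1 : (e (Multiplicative.ofAdd (e.symm ⟨t, hH ht⟩).toAdd)).1 = t := by
        show (e (e.symm ⟨t, hH ht⟩)).1 = t
        rw [MulEquiv.apply_symm_apply]
      have h2 : (e.symm ⟨t, hH ht⟩).toAdd ∈ K := (hK _).2 (by rw [h1]; exact ht)
      rw [← h1, hone, hx]
      exact (hKK _).1 h2
    · rintro ⟨ht, h⟩
      have h1 : (e (Multiplicative.ofAdd (e.symm ⟨t, ht⟩).toAdd)).1 = t := by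
        show (e (e.symm ⟨t, ht⟩)).1 = t
        rw [MulEquiv.apply_symm_apply]
      rw [← h1, hone, hx] at h
      have h2 := (hK _).1 ((hKK _).2 h)
      rwa [h1] at h2
  · intro x h
    have h1 : PP x ∈ J := (hJ _).2 fun φ hφ => (hone φ x).1 (h _ ((hK φ).1 hφ))
    obtain ⟨m, hm⟩ := hspan ⟨PP x, h1⟩
    exact ⟨m, by rw [hx]; exact (congrArg Subtype.val hm).symm⟩

end Cfsg.Agent.H865.EE
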